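import Mathlib
import Cfsg.Agent.Lib.Helper32.Scn.Tools

/-!
# S1904 package [Ma] (helper72): `C_X(M) ≤ M` for the maximal `A`-invariant normal abelian `M`.
-/

set_option autoImplicit false

universe u

namespace Cfsg.Agent.Lib.Helper72.Scn

open Cfsg.Agent.Lib.Helper32.Scn

/-- A nontrivial normal subgroup of a finite `p`-group meets the centre nontrivially. -/
theorem normal_meets_center {Q : Type u} [Group Q] [Finite Q] {p : ℕ} [Fact p.Prime]
    (hQ : IsPGroup p Q) (N : Subgroup Q) [hN : N.Normal] (hN1 : N ≠ ⊥) :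
    ∃ y ∈ N, y ∈ Subgroup.center Q ∧ y ≠ 1 := by
  have hC : IsPGroup p (ConjAct Q) := hQ
  have hpN : p ∣ Nat.card N := by
    have hNp : IsPGroup p N := hQ.to_subgroup N
    obtain ⟨n, hn⟩ := IsPGroup.iff_card.mp hNp
    have hn0 : n ≠ 0 := by
      rintro rfl
      rw [pow_zero] at hn
      exact hN1 ((Subgroup.card_eq_one).mp hn)
    rw [hn]
    exact dvd_pow_self p hn0
  obtain ⟨b, hb, hne⟩ :=
    hC.exists_fixed_point_of_prime_dvd_card_of_fixed_point (α := N) hpN (a := 1)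
      (by intro g; simp)
  refine ⟨b, b.2, ?_, ?_⟩
  · rw [Subgroup.mem_center_iff]
    intro g
    have h1 := hb (ConjAct.toConjAct g)
    have h2 : g * (b : Q) * g⁻¹ = (b : Q) := by
      have := congrArg Subtype.val h1
      rw [ConjAct.Subgroup.val_conj_smul, ConjAct.smul_def] at this
      simpa using this
    calc g * (b : Q) = g * (b : Q) * g⁻¹ * g := by group
      _ = (b : Q) * g := by rw [h2]
  · intro h
    apply hne
    exact Subtype.ext h.symm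

/-- If a normal subgroup `C` of a finite 2-group is not inside the normal subgroup `M`, then some
`y ∈ C ∖ M` maps to a central involution of `X ⧸ M`. -/
theorem exists_lift {X : Type u} [Group X] [Finite X] (hX : IsPGroup 2 X) (M : Subgroup X)
    [M.Normal] (C : Subgroup X) [C.Normal] (x₀ : X) (hx₀ : x₀ ∈ C) (hx₀M : x₀ ∉ M) :
    ∃ y ∈ C, y ∉ M ∧ y * y ∈ M ∧ ∀ g : X, g * y * g⁻¹ * y⁻¹ ∈ M := by
  classical
  have : Fact (Nat.Prime 2) := ⟨Nat.prime_two⟩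
  have hQ : IsPGroup 2 (X ⧸ M) := hX.to_quotient M
  have hUn : (C.map (QuotientGroup.mk' M)).Normal :=
    Subgroup.Normal.map inferInstance _ (QuotientGroup.mk'_surjective M)
  have hU1 : C.map (QuotientGroup.mk' M) ≠ ⊥ := by
    intro hbot
    have h1 : (QuotientGroup.mk' M) x₀ ∈ C.map (QuotientGroup.mk' M) :=
      Subgroup.mem_map_of_mem _ hx₀
    rw [hbot, Subgroup.mem_bot] at h1
    exact hx₀M ((QuotientGroup.eq_one_iff x₀).mp h1)
  obtain ⟨z, hzU, hzZ, hz1⟩ := normal_meets_center hQ (C.map (QuotientGroup.mk' M)) hU1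
  obtain ⟨c, hcC, rfl⟩ := Subgroup.mem_map.mp hzU
  have hex : ∃ j : ℕ, (QuotientGroup.mk' M c) ^ (2 ^ j) = 1 := hQ _
  have hj0 : Nat.find hex ≠ 0 := by
    intro h0
    have h1 := Nat.find_spec hex
    rw [h0, pow_zero, pow_one] at h1
    exact hz1 h1
  obtain ⟨i, hi⟩ := Nat.exists_eq_succ_of_ne_zero hj0
  have hmin : (QuotientGroup.mk' M c) ^ (2 ^ i) ≠ 1 :=
    Nat.find_min hex (by rw [hi]; exact Nat.lt_succ_self i)
  have hsq : (QuotientGroup.mk' M c) ^ (2 ^ (i + 1)) = 1 := by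
    have h1 := Nat.find_spec hex
    rwa [hi] at h1
  refine ⟨c ^ (2 ^ i), C.pow_mem hcC _, ?_, ?_, ?_⟩
  · intro hc
    apply hmin
    rw [← map_pow]
    exact (QuotientGroup.eq_one_iff _).mpr hc
  · have h1 : c ^ (2 ^ i) * c ^ (2 ^ i) = c ^ (2 ^ (i + 1)) := by
      rw [← pow_add, pow_succ, mul_two]
    rw [h1]
    have h2 : (QuotientGroup.mk' M) (c ^ (2 ^ (i + 1))) = 1 := by rw [map_pow]; exact hsq
    exact (QuotientGroup.eq_one_iff _).mp h2
  · intro g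
    have hcen : (QuotientGroup.mk' M c) ^ (2 ^ i) ∈ Subgroup.center (X ⧸ M) :=
      Subgroup.pow_mem _ hzZ _
    have h2 : (QuotientGroup.mk' M) (g * c ^ (2 ^ i) * g⁻¹ * (c ^ (2 ^ i))⁻¹) = 1 := by
      rw [map_mul, map_mul, map_mul, map_inv, map_inv, map_pow]
      have h3 := Subgroup.mem_center_iff.mp hcen (QuotientGroup.mk' M g)
      rw [h3]
      group
    exact (QuotientGroup.eq_one_iff _).mp h2

/-- The elements centralizing `M` whose image in `X ⧸ M` is a central element of order `≤ 2`. -/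
def subN {X : Type u} [Group X] (M : Subgroup X) [hM : M.Normal] : Subgroup X where
  carrier := {c | (∀ m ∈ M, c * m = m * c) ∧ c * c ∈ M ∧ ∀ g : X, g * c * g⁻¹ * c⁻¹ ∈ M}
  one_mem' := ⟨fun m _ => by simp, by simp, fun g => by simp⟩
  mul_mem' := by
    rintro a b ⟨ha, ha2, hag⟩ ⟨hb, hb2, hbg⟩
    refine ⟨fun m hm => ?_, ?_, fun g => ?_⟩
    · rw [mul_assoc, hb m hm, ← mul_assoc, ha m hm, mul_assoc]
    · have e : a * b * (a * b) = (a * a) * (a⁻¹ * b * a⁻¹⁻¹ * b⁻¹) * (b * b) := by group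
      rw [e]
      exact M.mul_mem (M.mul_mem ha2 (hbg a⁻¹)) hb2
    · have e : g * (a * b) * g⁻¹ * (a * b)⁻¹
          = (g * a * g⁻¹ * a⁻¹) * (a * (g * b * g⁻¹ * b⁻¹) * a⁻¹) := by group
      rw [e]
      exact M.mul_mem (hag g) (hM.conj_mem _ (hbg g) a)
  inv_mem' := by
    rintro a ⟨ha, ha2, hag⟩
    refine ⟨fun m hm => ?_, ?_, fun g => ?_⟩
    · have h1 := ha m hm
      calc a⁻¹ * m = a⁻¹ * (m * a) * a⁻¹ := by group
        _ = a⁻¹ * (a * m) * a⁻¹ := by rw [h1]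
        _ = m * a⁻¹ := by group
    · have e : a⁻¹ * a⁻¹ = (a * a)⁻¹ := by group
      rw [e]
      exact M.inv_mem ha2
    · have e : g * a⁻¹ * g⁻¹ * a⁻¹⁻¹ = a⁻¹ * (g * a * g⁻¹ * a⁻¹)⁻¹ * a⁻¹⁻¹ := by group
      rw [e]
      exact hM.conj_mem _ (M.inv_mem (hag g)) a⁻¹

theorem mem_subN {X : Type u} [Group X] (M : Subgroup X) [M.Normal] {c : X} :
    c ∈ subN M ↔ (∀ m ∈ M, c * m = m * c) ∧ c * c ∈ M ∧ ∀ g : X, g * c * g⁻¹ * c⁻¹ ∈ M :=
  Iff.rfl

set_option maxHeartbeats 1600000 in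
/-- Package [Ma] of S1904. -/
theorem lemMa : LemMa.{u} := by
  intro X _ _ A φ M n h x₀ hx₀
  by_contra hx₀M
  have hb := h.c.b
  have hMn : M.Normal := h.c.nrm
  have hX : IsPGroup 2 X := hb.hyp.two
  have hVM : omZ X ≤ M := omZ_le_bigW.trans h.c.W_le
  have hM1 : M ≠ ⊥ := by
    obtain ⟨m, hm, hmV⟩ := h.c.ne
    intro hbot
    rw [hbot, Subgroup.mem_bot] at hm
    exact hmV (hm ▸ (omZ X).one_mem)
  have hinvM : ∀ b ∈ M, b * b = 1 → b ∈ omZ X := (hb.abel M h.c.nrm h.c.inv h.c.ab hM1).2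
  have hx₀C : x₀ ∈ Subgroup.centralizer (M : Set X) := by
    rw [Subgroup.mem_centralizer_iff]
    intro m hm
    exact (hx₀ m hm).symm
  obtain ⟨y₀, hy₀C, hy₀M, hy₀sq, hy₀comm⟩ :=
    exists_lift hX M (Subgroup.centralizer (M : Set X)) x₀ hx₀C hx₀M
  have hy₀N : y₀ ∈ subN M := by
    refine ⟨fun m hm => ?_, hy₀sq, hy₀comm⟩
    exact ((Subgroup.mem_centralizer_iff.mp hy₀C) m hm).symm
  -- basic properties of `N`
  have hMN : M ≤ subN M := fun m hm =>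
    ⟨fun m' hm' => h.c.ab m hm m' hm', M.mul_mem hm hm,
      fun g => M.mul_mem (hMn.conj_mem m hm g) (M.inv_mem hm)⟩
  have hNn : (subN M).Normal := by
    constructor
    intro c hc g
    refine ⟨fun m hm => ?_, ?_, fun g' => ?_⟩
    · have hm' : g⁻¹ * m * g⁻¹⁻¹ ∈ M := hMn.conj_mem m hm g⁻¹
      have h1 := hc.1 _ hm'
      calc g * c * g⁻¹ * m = g * (c * (g⁻¹ * m * g⁻¹⁻¹)) * g⁻¹ := by group
        _ = g * ((g⁻¹ * m * g⁻¹⁻¹) * c) * g⁻¹ := by rw [h1]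
        _ = m * (g * c * g⁻¹) := by group
    · have e : g * c * g⁻¹ * (g * c * g⁻¹) = g * (c * c) * g⁻¹ := by group
      rw [e]
      exact hMn.conj_mem _ hc.2.1 g
    · have e : g' * (g * c * g⁻¹) * g'⁻¹ * (g * c * g⁻¹)⁻¹
          = g * ((g⁻¹ * g' * g) * c * (g⁻¹ * g' * g)⁻¹ * c⁻¹) * g⁻¹ := by group
      rw [e]
      exact hMn.conj_mem _ (hc.2.2 _) g
  have hNA : ∀ ψ ∈ A, ∀ c ∈ subN M, ψ c ∈ subN M := by
    intro ψ hψ c hc
    refine ⟨fun m hm => ?_, ?_, fun g => ?_⟩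
    · have h1 := congrArg ψ (hc.1 _ (h.c.inv ψ⁻¹ (A.inv_mem hψ) m hm))
      simpa using h1
    · rw [← map_mul]
      exact h.c.inv ψ hψ _ hc.2.1
    · have h1 := h.c.inv ψ hψ _ (hc.2.2 (ψ⁻¹ g))
      simpa using h1
  -- commutators of `N` lie in `omZ X`
  have hcommV : ∀ y ∈ subN M, ∀ y' ∈ subN M, y' * y * y'⁻¹ * y⁻¹ ∈ omZ X := by
    intro y hy y' hy'
    have hkM : y' * y * y'⁻¹ * y⁻¹ ∈ M := hy.2.2 y'
    obtain ⟨k, hk⟩ : ∃ k, k = y' * y * y'⁻¹ * y⁻¹ := ⟨_, rfl⟩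
    rw [← hk] at hkM ⊢
    have hk1 : y' * y = k * y * y' := by rw [hk]; group
    have hk2 : y' * k = k * y' := hy'.1 k hkM
    have hk3 : y * (y' * y') = (y' * y') * y := hy.1 _ hy'.2.1
    have hk4 : k * k * (y * y' * y') = 1 * (y * y' * y') := by
      calc k * k * (y * y' * y') = k * (k * y * y') * y' := by group
        _ = k * (y' * y) * y' := by rw [hk1]
        _ = (k * y') * y * y' := by group
        _ = (y' * k) * y * y' := by rw [hk2]
        _ = y' * (k * y * y') := by group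
        _ = y' * (y' * y) := by rw [hk1]
        _ = (y' * y') * y := by group
        _ = y * (y' * y') := by rw [hk3]
        _ = 1 * (y * y' * y') := by group
    exact hinvM k hkM (mul_right_cancel hk4)
  -- the map `f y = y ^ (2 ^ n)`
  have h2n : 2 ^ n = 2 * 2 ^ (n - 1) := by
    rw [← pow_succ']
    congr 1
    have := h.n2
    omega
  have hpow2 : ∀ z : X, z ^ (2 ^ n) = (z * z) ^ (2 ^ (n - 1)) := fun z => by
    rw [h2n, pow_mul, pow_two]
  have hkpow : ∀ k ∈ omZ X, k ^ (2 ^ (n - 1)) = 1 := by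
    intro k hk
    have h1 : 2 ^ (n - 1) = 2 * 2 ^ (n - 2) := by
      rw [← pow_succ']
      congr 1
      have := h.n2
      omega
    rw [h1, pow_mul, pow_two, omZ_sq hk, one_pow]
  have hfmul : ∀ y ∈ subN M, ∀ y' ∈ subN M,
      (y * y') ^ (2 ^ n) = y ^ (2 ^ n) * y' ^ (2 ^ n) := by
    intro y hy y' hy'
    have hkV := hcommV y hy y' hy'
    obtain ⟨k, hk⟩ : ∃ k, k = y' * y * y'⁻¹ * y⁻¹ := ⟨_, rfl⟩
    rw [← hk] at hkV
    have e : (y * y') * (y * y') = k * ((y * y) * (y' * y')) := by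
      calc (y * y') * (y * y') = y * (k * y * y') * y' := by rw [hk]; group
        _ = (y * k) * y * y' * y' := by group
        _ = (k * y) * y * y' * y' := by rw [omZ_comm hkV y]
        _ = k * ((y * y) * (y' * y')) := by group
    rw [hpow2, hpow2 y, hpow2 y', e]
    have c1 : Commute k ((y * y) * (y' * y')) := (omZ_comm hkV _).symm
    have c2 : Commute (y * y) (y' * y') := h.c.ab _ hy.2.1 _ hy'.2.1
    rw [c1.mul_pow, c2.mul_pow, hkpow k hkV, one_mul]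
  have hfV : ∀ y ∈ subN M, y ^ (2 ^ n) ∈ omZ X := by
    intro y hy
    apply hinvM
    · rw [hpow2]
      exact M.pow_mem hy.2.1 _
    · have h1 : y ^ (2 ^ n) * y ^ (2 ^ n) = (y * y) ^ (2 ^ n) := by
        rw [← pow_add, ← two_mul, pow_mul, pow_two]
      rw [h1]
      exact h.exp _ hy.2.1
  -- the kernel of `f` is `M`
  have hker : ∀ y ∈ subN M, y ^ (2 ^ n) = 1 → y ∈ M := by
    intro y hy hfy
    by_contra hyM
    rw [hpow2] at hfy
    obtain ⟨u, hu, hyu⟩ := h.sqr (y * y) hy.2.1 hfy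
    have hyu' : y * u = u * y := hy.1 u hu
    have hyui : u⁻¹ * y = y * u⁻¹ := by
      calc u⁻¹ * y = u⁻¹ * (y * u) * u⁻¹ := by group
        _ = u⁻¹ * (u * y) * u⁻¹ := by rw [hyu']
        _ = y * u⁻¹ := by group
    obtain ⟨t, ht⟩ : ∃ t, t = y * u⁻¹ := ⟨_, rfl⟩
    have htN : t ∈ subN M := by
      rw [ht]
      exact (subN M).mul_mem hy ((subN M).inv_mem (hMN hu))
    have htM : t ∉ M := by
      intro hc
      apply hyM
      have h1 := M.mul_mem hc hu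
      rw [ht, inv_mul_cancel_right] at h1
      exact h1
    have htt : t * t = 1 := by
      calc t * t = y * (u⁻¹ * y) * u⁻¹ := by rw [ht]; group
        _ = y * (y * u⁻¹) * u⁻¹ := by rw [hyui]
        _ = (y * y) * (u * u)⁻¹ := by group
        _ = 1 := by rw [hyu]; group
    have htg : ∀ g : X, g * t * g⁻¹ * t⁻¹ ∈ omZ X := by
      intro g
      have hcM := htN.2.2 g
      obtain ⟨c, hc⟩ : ∃ c, c = g * t * g⁻¹ * t⁻¹ := ⟨_, rfl⟩
      rw [← hc] at hcM ⊢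
      apply hinvM c hcM
      have hct : t * c = c * t := htN.1 c hcM
      have h1 : (c * t) * (c * t) = 1 := by
        have h2 : c * t = g * t * g⁻¹ := by rw [hc]; group
        rw [h2]
        calc g * t * g⁻¹ * (g * t * g⁻¹) = g * (t * t) * g⁻¹ := by group
          _ = 1 := by rw [htt]; group
      calc c * c = c * c * (t * t) := by rw [htt, mul_one]
        _ = c * (c * t) * t := by group
        _ = c * (t * c) * t := by rw [hct]
        _ = (c * t) * (c * t) := by group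
        _ = 1 := h1
    exact htM (hVM (hb.inv t htt htg))
  have hker' : ∀ s ∈ subN M, ∀ z ∈ subN M, s ^ (2 ^ n) = z ^ (2 ^ n) → s⁻¹ * z ∈ M := by
    intro s hs z hz hsz
    apply hker _ ((subN M).mul_mem ((subN M).inv_mem hs) hz)
    rw [hfmul _ ((subN M).inv_mem hs) _ hz, inv_pow, hsz, inv_mul_cancel]
  -- the elements `y₀`, `y₁ = φ y₀`, `y₂ = φ (φ y₀)`
  obtain ⟨v, hv⟩ : ∃ v, v = y₀ ^ (2 ^ n) := ⟨_, rfl⟩
  have hvV : v ∈ omZ X := by rw [hv]; exact hfV y₀ hy₀N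
  have hv1 : v ≠ 1 := by
    intro hc
    rw [hv] at hc
    exact hy₀M (hker y₀ hy₀N hc)
  obtain ⟨y₁, hy₁⟩ : ∃ y₁, y₁ = φ y₀ := ⟨_, rfl⟩
  obtain ⟨y₂, hy₂⟩ : ∃ y₂, y₂ = φ y₁ := ⟨_, rfl⟩
  have hy₁N : y₁ ∈ subN M := by rw [hy₁]; exact hNA φ hb.φmem y₀ hy₀N
  have hy₂N : y₂ ∈ subN M := by rw [hy₂]; exact hNA φ hb.φmem y₁ hy₁N
  have hf1 : y₁ ^ (2 ^ n) = φ v := by rw [hy₁, hv, map_pow]
  have hf2 : y₂ ^ (2 ^ n) = φ (φ v) := by rw [hy₂, ← hf1, map_pow]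
  have hf01 : (y₀ * y₁) ^ (2 ^ n) = φ (φ v) := by
    rw [hfmul y₀ hy₀N y₁ hy₁N, ← hv, hf1, hb.mul_phi hvV]
  have h01N : y₀ * y₁ ∈ subN M := (subN M).mul_mem hy₀N hy₁N
  have hmM : (y₀ * y₁)⁻¹ * y₂ ∈ M := hker' _ h01N _ hy₂N (by rw [hf01, hf2])
  obtain ⟨m, hm⟩ : ∃ m, m = (y₀ * y₁)⁻¹ * y₂ := ⟨_, rfl⟩
  rw [← hm] at hmM
  have hy₂eq : y₂ = y₀ * y₁ * m := by rw [hm]; group
  -- `y₀` and `y₁` commute
  have hk₀V : y₀ * y₁ * y₀⁻¹ * y₁⁻¹ ∈ omZ X := hcommV y₁ hy₁N y₀ hy₀N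
  obtain ⟨k₀, hk₀⟩ : ∃ k₀, k₀ = y₀ * y₁ * y₀⁻¹ * y₁⁻¹ := ⟨_, rfl⟩
  rw [← hk₀] at hk₀V
  have hφk₀ : φ k₀ = k₀ := by
    have h1 : φ k₀ = y₁ * y₂ * y₁⁻¹ * y₂⁻¹ := by
      rw [hk₀, map_mul, map_mul, map_mul, map_inv, map_inv, ← hy₁, ← hy₂]
    have hm1 : y₁ * m = m * y₁ := hy₁N.1 m hmM
    have h2 : y₁ * y₂ * y₁⁻¹ * y₂⁻¹ = k₀⁻¹ := by
      rw [hy₂eq, hk₀]
      calc y₁ * (y₀ * y₁ * m) * y₁⁻¹ * (y₀ * y₁ * m)⁻¹
          = y₁ * y₀ * (y₁ * m) * y₁⁻¹ * m⁻¹ * y₁⁻¹ * y₀⁻¹ := by group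
        _ = y₁ * y₀ * (m * y₁) * y₁⁻¹ * m⁻¹ * y₁⁻¹ * y₀⁻¹ := by rw [hm1]
        _ = (y₀ * y₁ * y₀⁻¹ * y₁⁻¹)⁻¹ := by group
    rw [h1, h2, omZ_inv hk₀V]
  have hk₀1 : k₀ = 1 := by
    by_contra hne
    exact hb.φV k₀ hk₀V hne hφk₀
  have h01 : Commute y₀ y₁ := by
    have h1 : y₀ * y₁ = k₀ * y₁ * y₀ := by rw [hk₀]; group
    rw [hk₀1, one_mul] at h1
    exact h1
  -- coset decomposition of `N`
  have hdecomp : ∀ z ∈ subN M, ∃ s, (s = 1 ∨ s = y₀ ∨ s = y₁ ∨ s = y₀ * y₁) ∧ s⁻¹ * z ∈ M := by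
    intro z hz
    rcases hb.V_cases hvV hv1 _ (hfV z hz) with hc | hc | hc | hc
    · refine ⟨1, Or.inl rfl, ?_⟩
      rw [inv_one, one_mul]
      exact hker z hz hc
    · exact ⟨y₀, Or.inr (Or.inl rfl), hker' _ hy₀N _ hz (by rw [hc, hv])⟩
    · exact ⟨y₁, Or.inr (Or.inr (Or.inl rfl)), hker' _ hy₁N _ hz (by rw [hc, hf1])⟩
    · exact ⟨y₀ * y₁, Or.inr (Or.inr (Or.inr rfl)), hker' _ h01N _ hz (by rw [hc, hf01])⟩
  have hcy : ∀ z ∈ subN M, Commute z y₀ ∧ Commute z y₁ := by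
    intro z hz
    obtain ⟨s, hs, hsz⟩ := hdecomp z hz
    have hm0 : Commute (s⁻¹ * z) y₀ := (hy₀N.1 _ hsz).symm
    have hm1 : Commute (s⁻¹ * z) y₁ := (hy₁N.1 _ hsz).symm
    have hs0 : Commute s y₀ := by
      rcases hs with rfl | rfl | rfl | rfl
      · exact Commute.one_left _
      · exact Commute.refl _
      · exact h01.symm
      · exact (Commute.refl y₀).mul_left h01.symm
    have hs1 : Commute s y₁ := by
      rcases hs with rfl | rfl | rfl | rfl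
      · exact Commute.one_left _
      · exact h01
      · exact Commute.refl _
      · exact h01.mul_left (Commute.refl y₁)
    have e : s * (s⁻¹ * z) = z := mul_inv_cancel_left s z
    constructor
    · have h1 := hs0.mul_left hm0
      rwa [e] at h1
    · have h1 := hs1.mul_left hm1
      rwa [e] at h1
  have hNab : ∀ z ∈ subN M, ∀ w ∈ subN M, z * w = w * z := by
    intro z hz w hw
    obtain ⟨s, hs, hsw⟩ := hdecomp w hw
    have c1 : Commute z s := by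
      rcases hs with rfl | rfl | rfl | rfl
      · exact Commute.one_right _
      · exact (hcy z hz).1
      · exact (hcy z hz).2
      · exact (hcy z hz).1.mul_right (hcy z hz).2
    have c2 : Commute z (s⁻¹ * w) := hz.1 _ hsw
    have h1 := c1.mul_right c2
    rwa [mul_inv_cancel_left] at h1
  exact hy₀M (h.c.max (subN M) hNn hNA hNab hMN hy₀N)

end Cfsg.Agent.Lib.Helper72.Scn
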